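import Mathlib
import Cfsg.Prelude.Def_Steinberg

/-!
# Homomorphisms from a Steinberg group over the field with two elements (helper648)

`exists_hom` : involutions `y r` satisfying the commutator formula modulo two give a homomorphism.
-/

set_option autoImplicit false

namespace Cfsg.Agent.H648.Wf.StTwo

open Cfsg Cfsg.Lie

/-- the letters of a commutator word with odd coefficients -/
def odd (l : List (ℕ × ℤ × ℕ × ℕ)) : List ℕ := l.filterMap fun c => if c.2.1 % 2 = 0 then none else some c.1

theorem commTerms_pos {D : ChevalleyDatum} {r s : ℕ} {c : ℕ × ℤ × ℕ × ℕ} (h : c ∈ D.commTerms r s) :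
    c.2.2.1 ≠ 0 ∧ c.2.2.2 ≠ 0 := by
  unfold ChevalleyDatum.commTerms at h
  rw [List.mem_filterMap] at h
  obtain ⟨a, ha, hac⟩ := h
  rw [Option.map_eq_some_iff] at hac
  obtain ⟨k, -, rfl⟩ := hac
  simp only [List.mem_cons, List.mem_nil_iff, or_false] at ha
  rcases ha with rfl | rfl | rfl | rfl | rfl | rfl | rfl <;> simp

theorem intCast_two (z : ℤ) : (z : ZMod 2) = if z % 2 = 0 then 0 else 1 := by
  rcases Int.emod_two_eq_zero_or_one z with h | h
  · rw [if_pos h]
    exact (ZMod.intCast_zmod_eq_zero_iff_dvd z 2).2 (Int.dvd_of_emod_eq_zero h)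
  · rw [if_neg (by omega)]
    obtain ⟨y, rfl⟩ : ∃ y, z = 2 * y + 1 := ⟨z / 2, by omega⟩
    push_cast
    have : (2 : ZMod 2) = 0 := by decide
    rw [this, zero_mul, zero_add]

theorem zmod_two (t : ZMod 2) : t = 0 ∨ t = 1 := by revert t; decide

section hom

variable {G : Type*} [Group G] (D : ChevalleyDatum) (y : ℕ → G)

/-- values on the generators of the Steinberg group -/
def yy (r : ℕ) (t : ZMod 2) : G := if t = 0 then 1 else y r

theorem yy_zero (r : ℕ) : yy y r 0 = 1 := if_pos rfl
theorem yy_one (r : ℕ) : yy y r 1 = y r := if_neg (by decide)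

theorem lift_stX (hge : ∀ r, D.nroots ≤ r → y r = 1) (r : ℕ) (t : ZMod 2) :
    FreeGroup.lift (fun p : Fin D.nroots × ZMod 2 => yy y p.1 p.2) (D.stX r t) = yy y r t := by
  unfold ChevalleyDatum.stX
  split_ifs with h
  · rw [FreeGroup.lift_apply_of]
  · rw [map_one, yy, hge r (not_lt.1 h)]
    split_ifs <;> rfl

theorem lift_stWord (hge : ∀ r, D.nroots ≤ r → y r = 1) (w : List (ℕ × ZMod 2)) :
    FreeGroup.lift (fun p : Fin D.nroots × ZMod 2 => yy y p.1 p.2) (D.stWord w) =
      (w.map fun p => yy y p.1 p.2).prod := by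
  unfold ChevalleyDatum.stWord
  rw [map_list_prod, List.map_map]
  congr 1
  apply List.map_congr_left
  intro p _
  exact lift_stX D y hge p.1 p.2

theorem commWord_zero_left (r s : ℕ) (u : ZMod 2) :
    ((D.commWord (ZMod 2) r s 0 u).map fun p => yy y p.1 p.2).prod = 1 := by
  apply List.prod_eq_one
  intro x hx
  unfold ChevalleyDatum.commWord at hx
  obtain ⟨p, hp, rfl⟩ := List.mem_map.1 hx
  obtain ⟨c, hc, rfl⟩ := List.mem_map.1 hp
  dsimp only
  rw [neg_zero, zero_pow (commTerms_pos hc).1, mul_zero, zero_mul, yy_zero]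

theorem commWord_zero_right (r s : ℕ) (t : ZMod 2) :
    ((D.commWord (ZMod 2) r s t 0).map fun p => yy y p.1 p.2).prod = 1 := by
  apply List.prod_eq_one
  intro x hx
  unfold ChevalleyDatum.commWord at hx
  obtain ⟨p, hp, rfl⟩ := List.mem_map.1 hx
  obtain ⟨c, hc, rfl⟩ := List.mem_map.1 hp
  dsimp only
  rw [zero_pow (commTerms_pos hc).2, mul_zero, yy_zero]

theorem commWord_one (r s : ℕ) :
    ((D.commWord (ZMod 2) r s 1 1).map fun p => yy y p.1 p.2).prod = ((odd (D.commTerms r s)).map y).prod := by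
  unfold ChevalleyDatum.commWord
  induction D.commTerms r s with
  | nil => rfl
  | cons c l ih =>
    rw [List.map_cons, List.map_cons, List.prod_cons, ih]
    have h1 : ((c.2.1 : ZMod 2) * (-1) ^ c.2.2.1 * 1 ^ c.2.2.2) = if c.2.1 % 2 = 0 then 0 else 1 := by
      have : (-1 : ZMod 2) = 1 := by decide
      rw [this, one_pow, one_pow, mul_one, mul_one, intCast_two]
    dsimp only
    rw [h1]
    by_cases h2 : c.2.1 % 2 = 0
    · rw [if_pos h2, yy_zero, one_mul]
      have : odd (c :: l) = odd l := by unfold odd; rw [List.filterMap_cons, if_pos h2]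
      rw [this]
    · rw [if_neg h2, yy_one]
      have : odd (c :: l) = c.1 :: odd l := by unfold odd; rw [List.filterMap_cons, if_neg h2]
      rw [this, List.map_cons, List.prod_cons]

theorem lift_hWord (hge : ∀ r, D.nroots ≤ r → y r = 1) (hsq : ∀ r < D.nroots, y r * y r = 1)
    (hneg : ∀ r < D.nroots, D.neg r < D.nroots) (r : ℕ) (hr : r < D.nroots) :
    FreeGroup.lift (fun p : Fin D.nroots × ZMod 2 => yy y p.1 p.2) (D.stH r (1 : ZMod 2)) = 1 := by
  unfold ChevalleyDatum.stH
  rw [lift_stWord D y hge]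
  unfold ChevalleyDatum.hWord ChevalleyDatum.nWord
  have e1 : (-(1 : ZMod 2)⁻¹) = 1 := by rw [inv_one]; decide
  have e2 : (-1 : ZMod 2) = 1 := by decide
  have hn := hneg r hr
  rw [e2, e1]
  simp only [List.map_append, List.map_cons, List.map_nil, List.prod_append, List.prod_cons, List.prod_nil,
    yy_one, mul_one]
  calc y r * (y (D.neg r) * y r) * (y r * (y (D.neg r) * y r))
      = y r * (y (D.neg r) * ((y r * y r) * (y (D.neg r) * y r))) := by simp only [mul_assoc]
    _ = y r * ((y (D.neg r) * y (D.neg r)) * y r) := by rw [hsq r hr, one_mul]; simp only [mul_assoc]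
    _ = 1 := by rw [hsq _ hn, one_mul, hsq r hr]

/-- **Homomorphisms from the Steinberg group over the field with two elements.** -/
theorem exists_hom (hge : ∀ r, D.nroots ≤ r → y r = 1) (hsq : ∀ r < D.nroots, y r * y r = 1)
    (hneg : ∀ r < D.nroots, D.neg r < D.nroots)
    (hcomm : ∀ r s, r < D.nroots → s < D.nroots → s ≠ r → s ≠ D.neg r →
      (y s)⁻¹ * (y r)⁻¹ * y s * y r = ((odd (D.commTerms r s)).map y).prod) :
    ∃ f : D.SteinbergGroup (ZMod 2) →* G, ∀ (r : ℕ) (t : ZMod 2), f (D.stGen (ZMod 2) r t) = yy y r t := by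
  have rels : ∀ g ∈ D.steinbergRels (ZMod 2),
      FreeGroup.lift (fun p : Fin D.nroots × ZMod 2 => yy y p.1 p.2) g = 1 := by
    rintro g ((⟨r, t, u, hr, rfl⟩ | ⟨r, s, t, u, hr, hs, h1, h2, rfl⟩) | ⟨r, t, u, hr, ht, hu, rfl⟩)
    · rw [map_mul, map_mul, map_inv, lift_stX D y hge, lift_stX D y hge, lift_stX D y hge]
      rcases zmod_two t with rfl | rfl
      · rw [yy_zero, one_mul, zero_add, mul_inv_cancel]
      · rcases zmod_two u with rfl | rfl
        · rw [yy_zero, mul_one, add_zero, mul_inv_cancel]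
        · have : (1 + 1 : ZMod 2) = 0 := by decide
          rw [this, yy_zero, yy_one, hsq r hr, inv_one, mul_one]
    · simp only [map_mul, map_inv, lift_stX D y hge, lift_stWord D y hge]
      rcases zmod_two t with rfl | rfl
      · rw [commWord_zero_left, yy_zero]; simp
      · rcases zmod_two u with rfl | rfl
        · rw [commWord_zero_right, yy_zero]; simp
        · rw [commWord_one, yy_one, yy_one, hcomm r s hr hs h1 h2, mul_inv_cancel]
    · have ht1 : t = 1 := (zmod_two t).resolve_left ht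
      have hu1 : u = 1 := (zmod_two u).resolve_left hu
      subst ht1 hu1
      simp only [map_mul, map_inv, mul_one, lift_hWord D y hge hsq hneg r hr, inv_one]
  exact ⟨PresentedGroup.toGroup rels, fun r t => lift_stX D y hge r t⟩

end hom

end Cfsg.Agent.H648.Wf.StTwo
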